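import Cfsg.Prelude.Def_RootSubgroups
import Cfsg.Agent.Lib.Classical.Transvection

set_option autoImplicit false

namespace Cfsg.Lib.RootSub

open Matrix Cfsg Cfsg.Lib.Classical
open scoped commutatorElement

variable {ι : Type*} [Fintype ι] [DecidableEq ι] {F : Type*} [Field F]

/-- the transvection group of a point and a hyperplane -/
def T (v φ : ι → F) : Subgroup (SpecialLinearGroup ι F) :=
  Subgroup.closure {t | ∃ c : F, (t : Matrix ι ι F) = tv (c • v) φ}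

/-- a member of `T v φ` -/
def el (v φ : ι → F) (h0 : φ ⬝ᵥ v = 0) (c : F) : SpecialLinearGroup ι F :=
  ⟨tv (c • v) φ, by rw [det_tv, dotProduct_smul, h0, smul_zero, add_zero]⟩

@[simp] theorem coe_el (v φ : ι → F) (h0 : φ ⬝ᵥ v = 0) (c : F) :
    (el v φ h0 c : Matrix ι ι F) = tv (c • v) φ := rfl

theorem el_mul (v φ : ι → F) (h0 : φ ⬝ᵥ v = 0) (a b : F) : el v φ h0 a * el v φ h0 b = el v φ h0 (a + b) := by
  refine Subtype.ext ?_
  show tv (a • v) φ * tv (b • v) φ = tv ((a + b) • v) φ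
  rw [tv_mul_left _ _ _ (by rw [dotProduct_smul, h0, smul_zero]), add_smul]

theorem el_zero (v φ : ι → F) (h0 : φ ⬝ᵥ v = 0) : el v φ h0 0 = 1 := Subtype.ext (by simp [tv_zero_left])

theorem el_inv (v φ : ι → F) (h0 : φ ⬝ᵥ v = 0) (a : F) : (el v φ h0 a)⁻¹ = el v φ h0 (-a) :=
  inv_eq_of_mul_eq_one_right (by rw [el_mul, add_neg_cancel, el_zero])

theorem el_mem (v φ : ι → F) (h0 : φ ⬝ᵥ v = 0) (c : F) : el v φ h0 c ∈ T v φ :=
  Subgroup.subset_closure ⟨c, rfl⟩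

theorem mem_T {v φ : ι → F} (h0 : φ ⬝ᵥ v = 0) {g : SpecialLinearGroup ι F} :
    g ∈ T v φ ↔ ∃ c : F, g = el v φ h0 c := by
  refine ⟨fun hg => ?_, fun ⟨c, hc⟩ => hc ▸ el_mem v φ h0 c⟩
  induction hg using Subgroup.closure_induction with
  | mem x hx => obtain ⟨c, hc⟩ := hx; exact ⟨c, Subtype.ext hc⟩
  | one => exact ⟨0, (el_zero v φ h0).symm⟩
  | mul x y _ _ hx hy =>
    obtain ⟨a, rfl⟩ := hx; obtain ⟨b, rfl⟩ := hy
    exact ⟨a + b, el_mul v φ h0 a b⟩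
  | inv x _ hx => obtain ⟨a, rfl⟩ := hx; exact ⟨-a, el_inv v φ h0 a⟩

theorem comm_T {v φ : ι → F} (h0 : φ ⬝ᵥ v = 0) : IsMulCommutative (T v φ) := by
  refine ⟨⟨fun a b => Subtype.ext ?_⟩⟩
  obtain ⟨x, hx⟩ := (mem_T h0).1 a.2
  obtain ⟨y, hy⟩ := (mem_T h0).1 b.2
  simp only [Subgroup.coe_mul, hx, hy, el_mul, add_comm]

theorem el_ne_one {v φ : ι → F} (hv : v ≠ 0) (hφ : φ ≠ 0) (h0 : φ ⬝ᵥ v = 0) {c : F} (hc : c ≠ 0) :
    el v φ h0 c ≠ 1 := by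
  intro h
  obtain ⟨i, hi⟩ := Function.ne_iff.1 hv
  obtain ⟨j, hj⟩ := Function.ne_iff.1 hφ
  have h' := congrArg (fun g : SpecialLinearGroup ι F => (g : Matrix ι ι F) i j) h
  simp [tv, vecMulVec_apply, hc] at h'
  rcases h' with h' | h'
  · exact hi h'
  · exact hj h'

theorem ne_bot_T {v φ : ι → F} (hv : v ≠ 0) (hφ : φ ≠ 0) (h0 : φ ⬝ᵥ v = 0) : T v φ ≠ ⊥ := fun h =>
  el_ne_one hv hφ h0 one_ne_zero (Subgroup.mem_bot.1 (h ▸ el_mem v φ h0 1))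

theorem prop_of_eq {v φ w ψ : ι → F} (hφ : φ ≠ 0) (h0 : φ ⬝ᵥ v = 0) (h0' : ψ ⬝ᵥ w = 0)
    (h : T v φ = T w ψ) : ∃ c : F, v = c • w := by
  obtain ⟨c, hc⟩ := (mem_T h0').1 (h ▸ el_mem v φ h0 1)
  obtain ⟨j, hj⟩ := Function.ne_iff.1 hφ
  refine ⟨c * ψ j / φ j, funext fun i => ?_⟩
  have h' := congrArg (fun g : SpecialLinearGroup ι F => (g : Matrix ι ι F) i j) hc
  simp [tv, vecMulVec_apply] at h'
  simp only [Pi.smul_apply, smul_eq_mul]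
  field_simp [show φ j ≠ 0 from hj]
  linear_combination h'

theorem T_smul (v φ : ι → F) {a b : F} (ha : a ≠ 0) (hb : b ≠ 0) : T (a • v) (b • φ) = T v φ := by
  have key : ∀ c : F, tv (c • a • v) (b • φ) = tv ((c * a * b) • v) φ := fun c => by
    rw [← tv_smul, smul_smul, smul_smul]; congr 2; ring
  refine congrArg Subgroup.closure (Set.ext fun t => ⟨fun ⟨c, hc⟩ => ⟨c * a * b, hc.trans (key c)⟩,
    fun ⟨c, hc⟩ => ⟨c / (a * b), ?_⟩⟩)
  rw [key, hc]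
  congr 2
  field_simp

theorem T_eq_of_tensor {v φ w ψ : ι → F} (h : vecMulVec v φ = vecMulVec w ψ) : T v φ = T w ψ := by
  have key : ∀ c : F, tv (c • v) φ = tv (c • w) ψ := fun c => by
    simp only [tv, smul_vecMulVec, h]
  simp only [T, key]

theorem conj_el (g : SpecialLinearGroup ι F) (v φ : ι → F) (c : F) (h0 : φ ⬝ᵥ v = 0) :
    ∃ h1, g * el v φ h0 c * g⁻¹ =
      el ((g : Matrix ι ι F) *ᵥ v) (φ ᵥ* ((g⁻¹ : SpecialLinearGroup ι F) : Matrix ι ι F)) h1 c := by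
  have e1 : ((g⁻¹ : SpecialLinearGroup ι F) : Matrix ι ι F) * (g : Matrix ι ι F) = 1 :=
    congrArg Subtype.val (inv_mul_cancel g)
  have e2 : (g : Matrix ι ι F) * ((g⁻¹ : SpecialLinearGroup ι F) : Matrix ι ι F) = 1 :=
    congrArg Subtype.val (mul_inv_cancel g)
  refine ⟨?_, Subtype.ext ?_⟩
  · rw [← dotProduct_mulVec, mulVec_mulVec, e1, one_mulVec, h0]
  · show (g : Matrix ι ι F) * tv (c • v) φ * ((g⁻¹ : SpecialLinearGroup ι F) : Matrix ι ι F) = tv _ _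
    rw [tv, tv, mul_add, mul_one, add_mul, e2, mul_vecMulVec, vecMulVec_mul, mulVec_smul]

theorem conjBy_T (g : SpecialLinearGroup ι F) (v φ : ι → F) (h0 : φ ⬝ᵥ v = 0) :
    conjBy (T v φ) g = T ((g : Matrix ι ι F) *ᵥ v) (φ ᵥ* ((g⁻¹ : SpecialLinearGroup ι F) : Matrix ι ι F)) := by
  ext x
  obtain ⟨h1, -⟩ := conj_el g v φ 1 h0
  rw [mem_T h1]
  constructor
  · rintro ⟨y, hy, rfl⟩
    obtain ⟨c, rfl⟩ := (mem_T h0).1 hy
    exact ⟨c, (conj_el g v φ c h0).2⟩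
  · rintro ⟨c, rfl⟩
    exact ⟨el v φ h0 c, el_mem v φ h0 c, (conj_el g v φ c h0).2⟩

theorem commute_case {v φ w ψ : ι → F} (h0 : φ ⬝ᵥ v = 0) (h0' : ψ ⬝ᵥ w = 0) (hx : φ ⬝ᵥ w = 0)
    (hy : ψ ⬝ᵥ v = 0) : ⁅T v φ, T w ψ⁆ = ⊥ := by
  rw [eq_bot_iff, Subgroup.commutator_le]
  intro a ha b hb
  obtain ⟨c, rfl⟩ := (mem_T h0).1 ha
  obtain ⟨d, rfl⟩ := (mem_T h0').1 hb
  rw [Subgroup.mem_bot, commutatorElement_eq_one_iff_mul_comm]
  refine Subtype.ext (ext_mulVec fun u => ?_)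
  show (tv (c • v) φ * tv (d • w) ψ) *ᵥ u = (tv (d • w) ψ * tv (c • v) φ) *ᵥ u
  simp only [← mulVec_mulVec, tv_mulVec, dotProduct_add, dotProduct_smul,
    hx, hy, smul_eq_mul, mul_zero, add_zero]
  abel

theorem commutator_el {v φ w ψ : ι → F} (h0 : φ ⬝ᵥ v = 0) (h0' : ψ ⬝ᵥ w = 0) (hy : ψ ⬝ᵥ v = 0) (c d : F) :
    ⁅el v φ h0 c, el w ψ h0' d⁆ = el v ψ hy (c * d * (φ ⬝ᵥ w)) := by
  rw [commutatorElement_def, mul_inv_eq_iff_eq_mul, mul_inv_eq_iff_eq_mul]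
  refine Subtype.ext (ext_mulVec fun u => ?_)
  show (tv (c • v) φ * tv (d • w) ψ) *ᵥ u =
    (tv ((c * d * (φ ⬝ᵥ w)) • v) ψ * tv (d • w) ψ * tv (c • v) φ) *ᵥ u
  simp only [← mulVec_mulVec, tv_mulVec, dotProduct_add, dotProduct_smul,
    smul_eq_mul, h0, h0', hy, mul_zero, add_zero, smul_smul]
  ext i
  simp only [Pi.add_apply, Pi.smul_apply, smul_eq_mul]
  ring

theorem commutator_ne {v φ w ψ : ι → F} (hv : v ≠ 0) (hψ : ψ ≠ 0) (h0 : φ ⬝ᵥ v = 0) (h0' : ψ ⬝ᵥ w = 0)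
    (hy : ψ ⬝ᵥ v = 0) (hx : φ ⬝ᵥ w ≠ 0) : ⁅T v φ, T w ψ⁆ ≠ ⊥ := fun h => by
  refine el_ne_one hv hψ hy (c := 1 * 1 * (φ ⬝ᵥ w)) (by simpa using hx) ?_
  rw [← commutator_el h0 h0' hy 1 1, ← Subgroup.mem_bot, ← h]
  exact Subgroup.commutator_mem_commutator (el_mem _ _ _ _) (el_mem _ _ _ _)

theorem commutator_case {v φ w ψ : ι → F} (h0 : φ ⬝ᵥ v = 0) (h0' : ψ ⬝ᵥ w = 0) (hy : ψ ⬝ᵥ v = 0)
    (hx : φ ⬝ᵥ w ≠ 0) :
    ⁅T v φ, T w ψ⁆ = T v ψ ∧ (∀ c ∈ T v ψ, ∀ x ∈ T v φ ⊔ T w ψ, c * x = x * c) ∧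
    (∀ a ∈ T v φ, a ≠ 1 → Subgroup.closure ((fun b => a * b * a⁻¹ * b⁻¹) '' (T w ψ : Set _)) = T v ψ) ∧
    (∀ b ∈ T w ψ, b ≠ 1 → Subgroup.closure ((fun a => a * b * a⁻¹ * b⁻¹) '' (T v φ : Set _)) = T v ψ) := by
  have hc : ⁅T v φ, T w ψ⁆ = T v ψ := by
    refine le_antisymm (Subgroup.commutator_le.2 fun a ha b hb => ?_) fun g hg => ?_
    · obtain ⟨c, rfl⟩ := (mem_T h0).1 ha
      obtain ⟨d, rfl⟩ := (mem_T h0').1 hb
      rw [commutator_el h0 h0' hy]; exact el_mem _ _ _ _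
    · obtain ⟨e, rfl⟩ := (mem_T hy).1 hg
      have := Subgroup.commutator_mem_commutator (el_mem v φ h0 (e / (φ ⬝ᵥ w))) (el_mem w ψ h0' 1)
      rwa [commutator_el h0 h0' hy, mul_one, div_mul_cancel₀ _ hx] at this
  refine ⟨hc, fun c hc' x hxm => ?_, fun a ha ha1 => ?_, fun b hb hb1 => ?_⟩
  · have h1 : T v φ ⊔ T w ψ ≤ Subgroup.centralizer (T v ψ : Set _) := by
      refine sup_le ?_ ?_ <;> rw [← Subgroup.commutator_eq_bot_iff_le_centralizer]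
      · exact commute_case h0 hy h0 hy
      · exact commute_case h0' hy hy h0'
    exact Subgroup.mem_centralizer_iff.1 (h1 hxm) c hc'
  · obtain ⟨c, rfl⟩ := (mem_T h0).1 ha
    have hc0 : c ≠ 0 := fun e => ha1 (by rw [e, el_zero])
    refine le_antisymm ((Subgroup.closure_le _).2 ?_) fun g hg => ?_
    · rintro _ ⟨b, hb, rfl⟩
      rw [← hc]
      exact Subgroup.commutator_mem_commutator ha hb
    · obtain ⟨e, rfl⟩ := (mem_T hy).1 hg
      refine Subgroup.subset_closure ⟨el w ψ h0' (e / (c * (φ ⬝ᵥ w))), el_mem _ _ _ _, ?_⟩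
      show ⁅el v φ h0 c, el w ψ h0' (e / (c * (φ ⬝ᵥ w)))⁆ = _
      rw [commutator_el h0 h0' hy]
      congr 1
      field_simp
  · obtain ⟨d, rfl⟩ := (mem_T h0').1 hb
    have hd0 : d ≠ 0 := fun e => hb1 (by rw [e, el_zero])
    refine le_antisymm ((Subgroup.closure_le _).2 ?_) fun g hg => ?_
    · rintro _ ⟨a, ha, rfl⟩
      rw [← hc]
      exact Subgroup.commutator_mem_commutator ha hb
    · obtain ⟨e, rfl⟩ := (mem_T hy).1 hg
      refine Subgroup.subset_closure ⟨el v φ h0 (e / (d * (φ ⬝ᵥ w))), el_mem _ _ _ _, ?_⟩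
      show ⁅el v φ h0 (e / (d * (φ ⬝ᵥ w))), el w ψ h0' d⁆ = _
      rw [commutator_el h0 h0' hy]
      congr 1
      field_simp

theorem vecMul_tv (ξ v φ : ι → F) : ξ ᵥ* tv v φ = ξ + (ξ ⬝ᵥ v) • φ := by
  rw [tv, vecMul_add, vecMul_one, vecMul_vecMulVec]

theorem rankOne_cond {v φ w ψ : ι → F} (hv : v ≠ 0) (hφ : φ ≠ 0) (hw : w ≠ 0) (hψ : ψ ≠ 0)
    (h0 : φ ⬝ᵥ v = 0) (h0' : ψ ⬝ᵥ w = 0) (hx : φ ⬝ᵥ w ≠ 0) (hy : ψ ⬝ᵥ v ≠ 0) :
    RankOneCondition (T v φ) (T w ψ) := by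
  intro a ha ha1
  obtain ⟨s, rfl⟩ := (mem_T h0).1 ha
  have hs : s ≠ 0 := fun e => ha1 (by rw [e, el_zero])
  set t := 1 / (s * (φ ⬝ᵥ w) * (ψ ⬝ᵥ v)) with ht
  have ht0 : t ≠ 0 := one_div_ne_zero (mul_ne_zero (mul_ne_zero hs hx) hy)
  refine ⟨el w ψ h0' t, el_mem _ _ _ _, el_ne_one hw hψ h0' ht0, ?_⟩
  rw [conjBy_T _ _ _ h0, conjBy_T _ _ _ h0', el_inv, el_inv]
  simp only [inv_inv, el_inv, neg_neg, coe_el, tv_mulVec, vecMul_tv, dotProduct_smul, smul_eq_mul, smul_smul]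
  have e1 : v + (ψ ⬝ᵥ v * -t) • w = (-(1 / (s * (φ ⬝ᵥ w)))) • (w + (φ ⬝ᵥ w * -s) • v) := by
    ext i
    simp only [ht, Pi.add_apply, Pi.smul_apply, smul_eq_mul]
    field_simp
    ring
  have e2 : φ + (t * (φ ⬝ᵥ w)) • ψ = (1 / (s * (ψ ⬝ᵥ v))) • (ψ + (s * (ψ ⬝ᵥ v)) • φ) := by
    ext i
    simp only [ht, Pi.add_apply, Pi.smul_apply, smul_eq_mul]
    field_simp
    ring
  rw [e1, e2]
  exact T_smul _ _ (neg_ne_zero.2 (one_div_ne_zero (mul_ne_zero hs hx))) (one_div_ne_zero (mul_ne_zero hs hy))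

theorem rankOne_pair {v φ w ψ : ι → F} (hv : v ≠ 0) (hφ : φ ≠ 0) (hw : w ≠ 0) (hψ : ψ ≠ 0)
    (h0 : φ ⬝ᵥ v = 0) (h0' : ψ ⬝ᵥ w = 0) (hx : φ ⬝ᵥ w ≠ 0) (hy : ψ ⬝ᵥ v ≠ 0) :
    IsRankOnePair (T v φ) (T w ψ) := by
  refine ⟨fun h => ?_, ?_, ?_, rankOne_cond hv hφ hw hψ h0 h0' hx hy, rankOne_cond hw hψ hv hφ h0' h0 hy hx⟩
  · obtain ⟨c, hc⟩ := prop_of_eq hφ h0 h0' h
    exact hy (by rw [hc, dotProduct_smul, h0', smul_zero])
  · have hc := comm_T (v := v) (φ := φ) h0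
    let inst : CommGroup ↥(T v φ) :=
      { (inferInstance : Group ↥(T v φ)) with mul_comm := hc.is_comm.comm }
    exact CommGroup.isNilpotent (G := ↥(T v φ))
  · have hc := comm_T (v := w) (φ := ψ) h0'
    let inst : CommGroup ↥(T w ψ) :=
      { (inferInstance : Group ↥(T w ψ)) with mul_comm := hc.is_comm.comm }
    exact CommGroup.isNilpotent (G := ↥(T w ψ))

theorem not_rankOne {v φ w ψ : ι → F} (hv : v ≠ 0) (hφ : φ ≠ 0)
    (h0 : φ ⬝ᵥ v = 0) (h0' : ψ ⬝ᵥ w = 0) (hy : ψ ⬝ᵥ v = 0) : ¬ IsRankOnePair (T v φ) (T w ψ) := by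
  intro h
  obtain ⟨b, hb, -, e⟩ := h.cond_left _ (el_mem v φ h0 1) (el_ne_one hv hφ h0 one_ne_zero)
  obtain ⟨t, rfl⟩ := (mem_T h0').1 hb
  rw [conjBy_T _ _ _ h0, conjBy_T _ _ _ h0', el_inv, el_inv] at e
  simp only [el_inv, neg_neg, coe_el, tv_mulVec, vecMul_tv, dotProduct_smul, smul_eq_mul, smul_smul, hy, zero_mul,
    zero_smul, add_zero, mul_zero] at e
  by_cases hx : φ ⬝ᵥ w = 0
  · simp only [hx, zero_mul, mul_zero, zero_smul, add_zero] at e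
    exact h.ne e
  · have hne : φ + (t * (φ ⬝ᵥ w)) • ψ ≠ 0 := by
      intro h'
      have := congrArg (fun z => z ⬝ᵥ w) h'
      simp [add_dotProduct, smul_dotProduct, h0'] at this
      exact hx this
    obtain ⟨c, hc⟩ := prop_of_eq hne (by simp [add_dotProduct, smul_dotProduct, h0, hy])
      (by simp [add_dotProduct, dotProduct_add, dotProduct_smul, h0, h0', hy]) e
    by_cases hc0 : c = 0
    · rw [hc0, zero_smul] at hc; exact hv hc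
    · have := congrArg (φ ⬝ᵥ ·) hc
      simp [dotProduct_add, dotProduct_smul, h0] at this
      exact (this.resolve_left hc0) |> hx

/-- The embedding of `SL₂` attached to a rank one pair. -/
def emb (v w φ' ψ' : ι → F) (h11 : φ' ⬝ᵥ v = 1) (h12 : φ' ⬝ᵥ w = 0) (h21 : ψ' ⬝ᵥ v = 0) (h22 : ψ' ⬝ᵥ w = 1) :
    SpecialLinearGroup (Fin 2) F →* SpecialLinearGroup ι F :=
  have hQP : (Matrix.of ![φ', ψ'] : Matrix (Fin 2) ι F) * (Matrix.of ![v, w] : Matrix (Fin 2) ι F)ᵀ = 1 := by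
    ext i j
    fin_cases i <;> fin_cases j <;> simp [Matrix.mul_apply] <;>
      first | exact h11 | exact h12 | exact h21 | exact h22
  { toFun := fun M => ⟨1 + (Matrix.of ![v, w] : Matrix (Fin 2) ι F)ᵀ *
        (((M : Matrix (Fin 2) (Fin 2) F) - 1) * (Matrix.of ![φ', ψ'] : Matrix (Fin 2) ι F)), by
      rw [Matrix.det_one_add_mul_comm, Matrix.mul_assoc, hQP, Matrix.mul_one, add_sub_cancel, M.2]⟩
    map_one' := Subtype.ext (by simp)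
    map_mul' := fun M N => Subtype.ext (by
      show 1 + (Matrix.of ![v, w] : Matrix (Fin 2) ι F)ᵀ *
          (((M : Matrix (Fin 2) (Fin 2) F) * (N : Matrix (Fin 2) (Fin 2) F) - 1) * (Matrix.of ![φ', ψ'] : Matrix (Fin 2) ι F)) =
        (1 + (Matrix.of ![v, w] : Matrix (Fin 2) ι F)ᵀ *
          (((M : Matrix (Fin 2) (Fin 2) F) - 1) * (Matrix.of ![φ', ψ'] : Matrix (Fin 2) ι F))) *
        (1 + (Matrix.of ![v, w] : Matrix (Fin 2) ι F)ᵀ *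
          (((N : Matrix (Fin 2) (Fin 2) F) - 1) * (Matrix.of ![φ', ψ'] : Matrix (Fin 2) ι F)))
      generalize (M : Matrix (Fin 2) (Fin 2) F) = m
      generalize (N : Matrix (Fin 2) (Fin 2) F) = k
      generalize hP : (Matrix.of ![v, w] : Matrix (Fin 2) ι F)ᵀ = P at hQP ⊢
      generalize hQ : (Matrix.of ![φ', ψ'] : Matrix (Fin 2) ι F) = Q at hQP ⊢
      have e : P * ((m - 1) * Q) * (P * ((k - 1) * Q)) = P * (((m - 1) * (k - 1)) * Q) := by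
        rw [Matrix.mul_assoc, Matrix.mul_assoc (m - 1), ← Matrix.mul_assoc Q, hQP, Matrix.one_mul,
          ← Matrix.mul_assoc (m - 1)]
      have hd : m * k - 1 = (m - 1) + (k - 1) + (m - 1) * (k - 1) := by noncomm_ring
      rw [hd, Matrix.add_mul _ _ Q, Matrix.add_mul _ _ Q, Matrix.mul_add P, Matrix.mul_add P, mul_add, add_mul, add_mul,
        one_mul, one_mul, mul_one, e]
      abel) }

theorem psl2_pair {v φ w ψ : ι → F}
    (h0 : φ ⬝ᵥ v = 0) (h0' : ψ ⬝ᵥ w = 0) (hx : φ ⬝ᵥ w ≠ 0) (hy : ψ ⬝ᵥ v ≠ 0) :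
    IsPSL2PairOver F (T v φ) (T w ψ) := by
  classical
  set x := φ ⬝ᵥ w
  set y := ψ ⬝ᵥ v
  have h11 : (y⁻¹ • ψ) ⬝ᵥ v = 1 := by rw [smul_dotProduct, smul_eq_mul, inv_mul_cancel₀ hy]
  have h12 : (y⁻¹ • ψ) ⬝ᵥ w = 0 := by rw [smul_dotProduct, h0', smul_zero]
  have h21 : (x⁻¹ • φ) ⬝ᵥ v = 0 := by rw [smul_dotProduct, h0, smul_zero]
  have h22 : (x⁻¹ • φ) ⬝ᵥ w = 1 := by rw [smul_dotProduct, smul_eq_mul, inv_mul_cancel₀ hx]
  let Φ := emb v w (y⁻¹ • ψ) (x⁻¹ • φ) h11 h12 h21 h22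
  have hU : ∀ c : F, ∀ g : SpecialLinearGroup (Fin 2) F, (g : Matrix (Fin 2) (Fin 2) F) = !![1, c; 0, 1] →
      Φ g = el v φ h0 (c * x⁻¹) := by
    intro c g hg
    refine Subtype.ext ?_
    show 1 + _ * (((g : Matrix (Fin 2) (Fin 2) F) - 1) * _) = tv _ _
    rw [hg, tv]
    congr 1
    ext i j
    simp [Matrix.mul_apply, Fin.sum_univ_two, vecMulVec_apply]
    ring
  have hL : ∀ c : F, ∀ g : SpecialLinearGroup (Fin 2) F, (g : Matrix (Fin 2) (Fin 2) F) = !![1, 0; c, 1] →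
      Φ g = el w ψ h0' (c * y⁻¹) := by
    intro c g hg
    refine Subtype.ext ?_
    show 1 + _ * (((g : Matrix (Fin 2) (Fin 2) F) - 1) * _) = tv _ _
    rw [hg, tv]
    congr 1
    ext i j
    simp [Matrix.mul_apply, Fin.sum_univ_two, vecMulVec_apply]
    ring
  have mu : (upperUnipotentSL2 F).map Φ = T v φ := by
    rw [upperUnipotentSL2, MonoidHom.map_closure]
    refine le_antisymm ((Subgroup.closure_le _).2 ?_) fun g hg => ?_
    · rintro _ ⟨g, ⟨g10, g00, g11⟩, rfl⟩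
      rw [hU ((g : Matrix (Fin 2) (Fin 2) F) 0 1) g (by rw [Matrix.eta_fin_two (g : Matrix (Fin 2) (Fin 2) F), g10, g00, g11]; simp)]
      exact el_mem _ _ _ _
    · obtain ⟨c, rfl⟩ := (mem_T h0).1 hg
      refine Subgroup.subset_closure ⟨⟨!![1, c * x; 0, 1], by simp [Matrix.det_fin_two]⟩, ⟨rfl, rfl, rfl⟩, ?_⟩
      exact (hU (c * x) _ rfl).trans (by rw [mul_inv_cancel_right₀ hx])
  have ml : (lowerUnipotentSL2 F).map Φ = T w ψ := by
    rw [lowerUnipotentSL2, MonoidHom.map_closure]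
    refine le_antisymm ((Subgroup.closure_le _).2 ?_) fun g hg => ?_
    · rintro _ ⟨g, ⟨g01, g00, g11⟩, rfl⟩
      rw [hL ((g : Matrix (Fin 2) (Fin 2) F) 1 0) g (by rw [Matrix.eta_fin_two (g : Matrix (Fin 2) (Fin 2) F), g01, g00, g11]; simp)]
      exact el_mem _ _ _ _
    · obtain ⟨c, rfl⟩ := (mem_T h0').1 hg
      refine Subgroup.subset_closure ⟨⟨!![1, 0; c * y, 1], by simp [Matrix.det_fin_two]⟩, ⟨rfl, rfl, rfl⟩, ?_⟩
      exact (hL (c * y) _ rfl).trans (by rw [mul_inv_cancel_right₀ hy])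
  refine ⟨Φ, ?_, ?_, mu, ml⟩
  · have htop : upperUnipotentSL2 F ⊔ lowerUnipotentSL2 F = ⊤ := by
      refine eq_top_iff.2 fun g _ => ?_
      have hgl := ker_det_le_of_transvection_mem
        ((upperUnipotentSL2 F ⊔ lowerUnipotentSL2 F).map SpecialLinearGroup.toGL) fun i j hij c g' hg' => by
          refine ⟨SpecialLinearGroup.transvection hij c, ?_, Units.ext hg'.symm⟩
          fin_cases i <;> fin_cases j <;> first | exact absurd rfl hij | skip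
          · refine Subgroup.mem_sup_left (Subgroup.subset_closure ⟨?_, ?_, ?_⟩) <;>
              simp [SpecialLinearGroup.transvection, Matrix.transvection]
          · refine Subgroup.mem_sup_right (Subgroup.subset_closure ⟨?_, ?_, ?_⟩) <;>
              simp [SpecialLinearGroup.transvection, Matrix.transvection]
      obtain ⟨g', hg', e⟩ := Subgroup.mem_map.1 (hgl (x := SpecialLinearGroup.toGL g)
        (by rw [MonoidHom.mem_ker]; exact Units.ext g.2))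
      have : g' = g := Subtype.ext (congrArg Units.val e)
      rwa [← this]
    rw [MonoidHom.range_eq_map, ← htop, Subgroup.map_sup, mu, ml]
  · intro M hM
    have h1 : Φ M = 1 := hM
    have hQP : (Matrix.of ![y⁻¹ • ψ, x⁻¹ • φ] : Matrix (Fin 2) ι F) * (Matrix.of ![v, w] : Matrix (Fin 2) ι F)ᵀ = 1 := by
      ext i j
      fin_cases i <;> fin_cases j <;> simp [Matrix.mul_apply] <;>
        first | simpa [dotProduct] using h11 | simpa [dotProduct] using h12 | simpa [dotProduct] using h21 |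
          simpa [dotProduct] using h22
    have h0'' : (Matrix.of ![v, w] : Matrix (Fin 2) ι F)ᵀ *
        (((M : Matrix (Fin 2) (Fin 2) F) - 1) * (Matrix.of ![y⁻¹ • ψ, x⁻¹ • φ] : Matrix (Fin 2) ι F)) = 0 := by
      have := congrArg Subtype.val h1
      change 1 + (Matrix.of ![v, w] : Matrix (Fin 2) ι F)ᵀ *
        (((M : Matrix (Fin 2) (Fin 2) F) - 1) * (Matrix.of ![y⁻¹ • ψ, x⁻¹ • φ] : Matrix (Fin 2) ι F)) = 1 at this
      exact add_eq_left.1 this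
    have h2 := congrArg (fun Z : Matrix ι ι F => (Matrix.of ![y⁻¹ • ψ, x⁻¹ • φ] : Matrix (Fin 2) ι F) * Z *
      (Matrix.of ![v, w] : Matrix (Fin 2) ι F)ᵀ) h0''
    simp only [Matrix.mul_zero, Matrix.zero_mul] at h2
    rw [← Matrix.mul_assoc _ _ (((M : Matrix (Fin 2) (Fin 2) F) - 1) * _), hQP, Matrix.one_mul, Matrix.mul_assoc, hQP,
      Matrix.mul_one, sub_eq_zero] at h2
    have : M = 1 := Subtype.ext h2
    rw [this]; exact one_mem _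

theorem exists_both {V : Type*} [AddCommGroup V] [Module F V] (f g : V →ₗ[F] F) (hf : f ≠ 0) (hg : g ≠ 0) :
    ∃ x, f x ≠ 0 ∧ g x ≠ 0 := by
  obtain ⟨a, ha⟩ := DFunLike.ne_iff.1 hf
  obtain ⟨b, hb⟩ := DFunLike.ne_iff.1 hg
  simp only [LinearMap.zero_apply] at ha hb
  by_cases h1 : g a = 0
  · by_cases h2 : f b = 0
    · exact ⟨a + b, by simp [h2, ha], by simp [h1, hb]⟩
    · exact ⟨b, h2, hb⟩
  · exact ⟨a, ha, h1⟩

end Cfsg.Lib.RootSub
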